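import Cfsg.Agent.GeoClasses.OrthParabolic

/-!
Stabilisers of non-degenerate subspaces are maximal in `Ω(Q)`.
-/

set_option autoImplicit false

namespace Cfsg.Agent.GeoClasses

open QuadraticMap Module Cfsg.Agent.Classical

universe u v

variable {F : Type u} [Field F] [Finite F] {V : Type v} [AddCommGroup V] [Module F V]
  [FiniteDimensional F V] {Q : QuadraticForm F V}

/-- Two non-orthogonal centres give the whole of `Ω`. -/
lemma commutator_le_of_centre_pair (hB : BNondeg Q) (hn : 5 ≤ finrank F V) {M : Subgroup (OQ Q)}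
    {e y : V} (he : e ∈ siegelCentres Q M) (hy : y ∈ siegelCentres Q M)
    (hey : polar Q y e ≠ 0) : commutator (OQ Q) ≤ M := by
  have hp := OrthGen.hasTwoPairs_of_five_le hB hn
  have hall : ∀ u, Q u = 0 → u ∈ siegelCentres Q M := by
    intro u hu
    rcases eq_or_ne u 0 with rfl | hu0
    · simpa using smul_mem_siegelCentres he 0
    by_cases hyu : polar Q y u = 0
    · have hy0 : y ≠ 0 := fun h => hey (by simp [h])
      obtain ⟨z, hz, h1, h2⟩ := exists_singular_not_orth' hB.qNondeg hp hy0 hy.choose hu0 hu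
      have hzX := mem_siegelCentres_of_pair he hy hey hz h1
      exact mem_siegelCentres_of_pair hy hzX (by rw [polar_comm]; exact h1) hu
        (by rw [polar_comm]; exact h2)
    · exact mem_siegelCentres_of_pair he hy hey hu hyu
  rw [commutator_eq_EQ hB hn, EQ, Subgroup.closure_le]
  rintro _ ⟨u, a, hu, ha, rfl⟩
  exact (hall u hu).choose_spec a ha

/-- The non-singular vectors span a non-degenerate space, except the hyperbolic plane over the
field with two elements. -/
lemma span_nonsingular_eq {W : Submodule F V}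
    (hW : ∀ w ∈ W, w ≠ 0 → ∃ x ∈ W, polar Q w x ≠ 0)
    (hex : finrank F W = 2 → (∃ v ∈ W, v ≠ 0 ∧ Q v = 0) → ∃ c : F, c ≠ 0 ∧ c ≠ 1) :
    Submodule.span F {w | w ∈ W ∧ Q w ≠ 0} = W := by
  set N := Submodule.span F {w | w ∈ W ∧ Q w ≠ 0} with hN
  have hNW : N ≤ W := Submodule.span_le.2 fun w hw => hw.1
  by_contra hne
  obtain ⟨v, hvW, hvN⟩ := SetLike.exists_of_lt (lt_of_le_of_ne hNW hne)
  have hv0 : v ≠ 0 := fun h => hvN (h ▸ N.zero_mem)
  have hout : ∀ z ∈ W, z ∉ N → Q z = 0 := fun z hz hzN => by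
    by_contra h
    exact hzN (Submodule.subset_span ⟨hz, h⟩)
  have hrel : ∀ (c : F), c ≠ 0 → ∀ z ∈ W, z ∉ N → ∀ x ∈ N, Q x + c * polar Q z x = 0 := by
    intro c hc z hz hzN x hx
    have hnot : c • z + x ∉ N := fun h => hzN (by
      have := N.smul_mem c⁻¹ (N.sub_mem h hx)
      rwa [add_sub_cancel_right, inv_smul_smul₀ hc] at this)
    have := hout _ (W.add_mem (W.smul_mem c hz) (hNW hx)) hnot
    rwa [qf_add, QuadraticMap.map_smul, hout z hz hzN, smul_zero, zero_add, polar_smul_left,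
      smul_eq_mul] at this
  obtain ⟨x₀, hx₀, hQ₀⟩ : ∃ x ∈ N, Q x ≠ 0 := by
    by_contra hcon
    push Not at hcon
    have hz : ∀ z ∈ W, Q z = 0 := fun z hz => by
      by_cases h : z ∈ N
      · exact hcon z h
      · exact hout z hz h
    obtain ⟨x, hx, h⟩ := hW v hvW hv0
    exact h (Forms.polar_eq_zero_of_totallySingular hz hvW hx)
  have htwo : ∀ c : F, c ≠ 0 → c = 1 := by
    intro c hc
    by_contra hc1
    have h1 := hrel 1 one_ne_zero v hvW hvN x₀ hx₀
    have h2 := hrel c hc v hvW hvN x₀ hx₀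
    have : (c - 1) * polar Q v x₀ = 0 := by linear_combination h2 - h1
    have := (mul_eq_zero.1 this).resolve_left (sub_ne_zero.2 hc1)
    exact hQ₀ (by simpa [this] using h1)
  have hchar : (1 : F) + 1 = 0 := by
    by_contra h
    have := htwo _ (neg_ne_zero.2 one_ne_zero)
    exact h (by linear_combination -this)
  have hk : 3 ≤ finrank F W := by
    by_contra hlt
    have h2 : finrank F W = 2 := by
      have h1 : finrank F N + 1 ≤ finrank F W :=
        Submodule.finrank_lt_finrank_of_lt (lt_of_le_of_ne hNW hne)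
      have hN0 : N ≠ ⊥ := fun h => hQ₀ (by rw [h, Submodule.mem_bot] at hx₀; simp [hx₀])
      have := Submodule.one_le_finrank_iff.2 hN0
      omega
    obtain ⟨c, hc, hc1⟩ := hex h2 ⟨v, hvW, hv0, hout v hvW hvN⟩
    exact hc1 (htwo c hc)
  have hNN : ∀ x ∈ N, ∀ y ∈ N, polar Q x y = 0 := by
    intro x hx y hy
    have h1 := hrel 1 one_ne_zero v hvW hvN _ (N.add_mem hx hy)
    rw [qf_add, polar_add_right] at h1
    linear_combination h1 - hrel 1 one_ne_zero v hvW hvN x hx - hrel 1 one_ne_zero v hvW hvN y hy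
  -- the polar form on `W`
  have hhalf : 2 * finrank F N ≤ finrank F W := by
    let B : LinearMap.BilinForm F W :=
      (polarBilin Q).compl₁₂ W.subtype W.subtype
    have hBnd : B.Nondegenerate := by
      refine ⟨fun a ha => ?_, fun a ha => ?_⟩ <;> (
        by_contra ha0
        obtain ⟨x, hx, h⟩ := hW a a.2 (fun h => ha0 (Subtype.ext h)))
      · exact h (ha ⟨x, hx⟩)
      · exact h (by rw [polar_comm]; exact ha ⟨x, hx⟩)
    have hle : N.comap W.subtype ≤ B.orthogonal (N.comap W.subtype) := fun a ha b hb =>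
      hNN _ hb _ ha
    have h1 := Submodule.finrank_mono hle
    rw [LinearMap.BilinForm.finrank_orthogonal hBnd,
      (Submodule.comapSubtypeEquivOfLe hNW).finrank_eq] at h1
    omega
  obtain ⟨y₀, hy₀W, hy₀⟩ : ∃ y ∈ W, y ∉ N ⊔ (F ∙ v) := by
    by_contra hcon
    push Not at hcon
    have := Submodule.finrank_mono (show W ≤ N ⊔ (F ∙ v) from hcon)
    have h2 : finrank F ↥(F ∙ v) = 1 := finrank_span_singleton hv0
    have h3 := Submodule.finrank_add_le_finrank_add_finrank N (F ∙ v)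
    omega
  have hperp : ∀ y ∈ W, v + y ∉ N → ∀ x ∈ N, polar Q y x = 0 := by
    intro y hy hvy x hx
    have h1 := hrel 1 one_ne_zero _ (W.add_mem hvW hy) hvy x hx
    rw [polar_add_left] at h1
    linear_combination h1 - hrel 1 one_ne_zero v hvW hvN x hx
  have hmem : ∀ {z}, v + z ∈ N → z ∈ N ⊔ (F ∙ v) := fun {z} hz => by
    have : z = (v + z) - v := by abel
    rw [this]
    exact Submodule.sub_mem _ (Submodule.mem_sup_left hz)
      (Submodule.mem_sup_right (Submodule.mem_span_singleton_self v))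
  have hy0' := hperp y₀ hy₀W fun h => hy₀ (hmem h)
  obtain ⟨z, hz, hxz⟩ := hW x₀ (hNW hx₀) (fun h => hQ₀ (by simp [h]))
  apply hxz
  rw [polar_comm]
  by_cases hvz : v + z ∈ N
  · have := hperp (z + y₀) (W.add_mem hz hy₀W) (fun h => hy₀ (Submodule.mem_sup_left (by
      simpa [add_sub_add_left_eq_sub] using N.sub_mem h hvz))) x₀ hx₀
    rw [polar_add_left, hy0' x₀ hx₀, add_zero] at this
    exact this
  · exact hperp z hz hvz x₀ hx₀

/-- Stabilisers of non-degenerate subspaces of at most half the dimension are maximal in `Ω`,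
away from hyperbolic planes over fields with at most three elements and from subspaces that some
isometry interchanges with their orthogonal. -/
theorem orth_nondeg_maximal (hB : BNondeg Q) {W : Submodule F V} (hW0 : W ≠ ⊥)
    (hW : ∀ w ∈ W, w ≠ 0 → ∃ x ∈ W, polar Q w x ≠ 0)
    (hk : finrank F W + 5 ≤ finrank F V) (hk2 : 2 * finrank F W ≤ finrank F V)
    (hswap : ∀ g : OQ Q, W.map g.1.toLinearMap ≠ OrthGen.perpSub Q W)
    (hex : finrank F W = 2 → (∃ v ∈ W, v ≠ 0 ∧ Q v = 0) →
      ∃ c : F, c ≠ 0 ∧ c ^ 2 ≠ 1) :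
    Cfsg.Geo.IsMaximalIn (commutator (OQ Q)) (Forms.stabSub Q W ⊓ commutator (OQ Q)) := by
  have hn : 5 ≤ finrank F V := by omega
  have hC := commutator_eq_EQ hB hn
  have hp := OrthGen.hasTwoPairs_of_five_le hB hn
  have hnd : (polarBilin Q).Nondegenerate :=
    ⟨fun a ha => hB a ha, fun a ha => hB a fun y => (polar_comm Q a y).trans (ha y)⟩
  have hrefl : LinearMap.BilinForm.IsRefl (polarBilin Q) := fun a b h => by
    simpa [polar_comm Q b a] using h
  set U := OrthGen.perpSub Q W with hUdef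
  have hWU : ∀ {w u}, w ∈ W → u ∈ U → polar Q w u = 0 := fun hw hu => hu _ hw
  have hUW : ∀ {w u}, w ∈ W → u ∈ U → polar Q u w = 0 := fun hw hu => by
    rw [polar_comm]; exact hu _ hw
  have hdimU : finrank F U = finrank F V - finrank F W := OrthGen.finrank_orthogonal_polar hB W
  have hdisj : ∀ z, z ∈ W → z ∈ U → z = 0 := fun z hz hzU => by
    by_contra h
    obtain ⟨x, hx, hzx⟩ := hW z hz h
    exact hzx (by rw [polar_comm]; exact hzU x hx)
  have hcompl : W ⊔ U = ⊤ := by
    refine Submodule.eq_top_of_finrank_eq ?_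
    have h := Submodule.finrank_sup_add_finrank_inf_eq W U
    rw [show W ⊓ U = ⊥ from eq_bot_iff.2 fun z hz => hdisj z hz.1 hz.2, finrank_bot, hdimU] at h
    omega
  have hsplit : ∀ z : V, ∃ x ∈ W, ∃ u ∈ U, x + u = z := fun z =>
    Submodule.mem_sup.1 (hcompl ▸ Submodule.mem_top)
  -- the restricted form on the orthogonal
  set QU : QuadraticForm F U := Q.comp U.subtype with hQU
  have hQUa : ∀ u : U, QU u = Q u := fun u => rfl
  have hQUp : ∀ u u' : U, polar QU u u' = polar Q (u : V) (u' : V) := fun u u' => rfl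
  have hBU : BNondeg QU := fun u hu => by
    apply Subtype.ext
    refine hB _ fun z => ?_
    obtain ⟨x, hx, y, hy, rfl⟩ := hsplit z
    rw [polar_add_right, hUW hx u.2, ← hQUp u ⟨y, hy⟩, hu, add_zero]
  have hnU : 5 ≤ finrank F U := by omega
  have hpU := OrthGen.hasTwoPairs_of_five_le hBU hnU
  have hstab : ∀ {k : OQ Q}, k ∈ Forms.stabSub Q W → ∀ w ∈ W, k.1 w ∈ W := by
    intro k hk w hw
    have : k.1 w ∈ W.map k.1.toLinearMap := ⟨w, hw, rfl⟩
    rwa [show W.map k.1.toLinearMap = W from hk] at this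
  obtain ⟨e₀, f₀, e₁, f₁, hq₀⟩ := id hpU
  refine ⟨lt_of_le_not_ge inf_le_right fun hle => ?_, fun M hM hMK => ?_⟩
  · obtain ⟨x, hx, hx0⟩ := W.exists_mem_ne_zero_of_ne_bot hW0
    obtain ⟨x', hx', hxx⟩ := hW x hx hx0
    have he : Q (e₀ : V) = 0 := hq₀.1.1
    have := hstab (hle (hC ▸ siegel_mem_EQ Q he (hUW hx e₀.2))).1 x' hx'
    rw [siegel_apply, hUW hx' e₀.2] at this
    simp only [zero_smul, add_zero, mul_zero, sub_zero] at this
    have h2 := W.smul_mem (polar Q x x')⁻¹ (W.sub_mem hx' this)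
    rw [sub_sub_cancel, inv_smul_smul₀ hxx] at h2
    exact hq₀.1.ne_zero (Subtype.ext (hdisj _ h2 e₀.2))
  by_cases hMW : M ≤ Forms.stabSub Q W
  · exact Or.inl (le_antisymm (le_inf hMW hMK) hM)
  refine Or.inr (le_antisymm hMK ?_)
  have hmemP : ∀ {p : OQ Q}, p ∈ commutator (OQ Q) → (∀ w ∈ W, p.1 w ∈ W) → p ∈ M :=
    fun hp' h => hM ⟨Forms.mem_stabSub_of_le h, hp'⟩
  have hTU : ∀ {e b : V} (he : Q e = 0) (hb : polar Q e b = 0), e ∈ U → b ∈ U →
      siegel Q he hb ∈ M ∧ ∀ w ∈ W, (siegel Q he hb).1 w = w := by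
    intro e b he hb heU hbU
    have hfix : ∀ w ∈ W, (siegel Q he hb).1 w = w := fun w hw =>
      siegel_fix Q he hb (hUW hw heU) (hUW hw hbU)
    exact ⟨hmemP (hC ▸ siegel_mem_EQ Q he hb) fun w hw => by rw [hfix w hw]; exact hw, hfix⟩
  -- a subspace invariant under `Ω(U)` with a component in `U` contains `U`
  have hirr : ∀ Z : Submodule F V,
      (∀ (e b : V) (he : Q e = 0) (hb : polar Q e b = 0), e ∈ U → b ∈ U →
        ∀ z ∈ Z, (siegel Q he hb).1 z ∈ Z) →
      ∀ x ∈ W, ∀ u ∈ U, u ≠ 0 → x + u ∈ Z → U ≤ Z := by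
    intro Z hZ x hx u hu hu0 hxu
    have key : ∀ (e : U), e ≠ 0 → QU e = 0 → ∀ (z : V), z ∈ Z → polar Q (e : V) z ≠ 0 →
        (e : V) ∈ Z := by
      intro e he0 he z hz hez
      obtain ⟨f, a, b, hq⟩ := hpU.two_pairs_of_singular hBU.qNondeg he0 he
      obtain ⟨-, ⟨-, -, hab⟩, hea, heb, -, -⟩ := hq
      have he' : Q (e : V) = 0 := he
      have ha' : polar Q (e : V) (a : V) = 0 := hea
      have hb' : polar Q (e : V) (b : V) = 0 := heb
      have hab' : polar Q (e : V) ((a : V) + b) = 0 := by rw [polar_add_right, ha', hb', add_zero]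
      have h1 := Z.sub_mem (Z.sub_mem (hZ _ _ he' hab' e.2 (U.add_mem a.2 b.2) z hz)
        (hZ _ _ he' ha' e.2 a.2 z hz))
        (Z.sub_mem (hZ _ _ he' hb' e.2 b.2 z hz) hz)
      have hab1 : polar Q (a : V) (b : V) = 1 := hab
      have h2 : (-polar Q (e : V) z) • (e : V) ∈ Z := by
        convert h1 using 1
        simp only [siegel_apply, polar_add_left, qf_add, hab1]
        module
      simpa [hez] using Z.smul_mem (-polar Q (e : V) z)⁻¹ h2
    have hyne : ¬ ∀ y : U, polar QU ⟨u, hu⟩ y = 0 := fun h =>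
      hu0 (congrArg Subtype.val (hBU ⟨u, hu⟩ h))
    obtain ⟨z₁, hz₁, hz₁0, hz₁u⟩ := exists_singular_polar_ne hq₀.1 hyne
    have hz₁Z : (z₁ : V) ∈ Z := key z₁ hz₁0 hz₁ _ hxu (by
      rw [polar_add_right, hUW hx z₁.2, zero_add]; exact hz₁u)
    have hsing : ∀ e : U, QU e = 0 → (e : V) ∈ Z := by
      intro e he
      rcases eq_or_ne e 0 with rfl | he0
      · exact Z.zero_mem
      obtain ⟨z₂, hz₂, h1, h2⟩ := exists_singular_not_orth' hBU.qNondeg hpU he0 he hz₁0 hz₁
      have hz₂0 : z₂ ≠ 0 := fun h => h1 (by simp [h])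
      exact key e he0 he _ (key z₂ hz₂0 hz₂ _ hz₁Z (by
        rw [← hQUp, polar_comm]; exact h2)) h1
    intro w hw
    exact singular_induction hq₀.1 (P := fun y : U => (y : V) ∈ Z)
      (fun a b ha hb => Z.add_mem ha hb) hsing ⟨w, hw⟩
  -- an element of `M` moving `W` and fixing a subspace of codimension two
  obtain ⟨g, hgM, hgW⟩ := SetLike.not_le_iff_exists.1 hMW
  obtain ⟨g', hg'M, hg'W, e', b', hfix⟩ : ∃ g' ∈ M, g' ∉ Forms.stabSub Q W ∧
      ∃ e' b' : V, ∀ z, polar Q e' z = 0 → polar Q b' z = 0 → g'.1 z = z := by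
    by_contra hcon
    push Not at hcon
    have hinv : ∀ (e b : V) (he : Q e = 0) (hb : polar Q e b = 0), e ∈ U → b ∈ U →
        ∀ z ∈ W.map (g⁻¹ : OQ Q).1.toLinearMap,
          (siegel Q he hb).1 z ∈ W.map (g⁻¹ : OQ Q).1.toLinearMap := by
      intro e b he hb heU hbU z hz
      obtain ⟨w, hw, rfl⟩ := hz
      have hge : Q (g.1 e) = 0 := by rw [OQ_map_app, he]
      have hgb : polar Q (g.1 e) (g.1 b) = 0 := by rw [OQ_polar, hb]
      have hc : g * siegel Q he hb * g⁻¹ = siegel Q hge hgb := siegel_conj Q g he hb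
      have hmem : g * siegel Q he hb * g⁻¹ ∈ M :=
        mul_mem (mul_mem hgM (hTU he hb heU hbU).1) (inv_mem hgM)
      by_cases hs : g * siegel Q he hb * g⁻¹ ∈ Forms.stabSub Q W
      · refine ⟨_, hstab hs w hw, ?_⟩
        simp [Subgroup.coe_mul]
      · obtain ⟨z, h1, h2, h3⟩ := hcon _ hmem hs (g.1 e) (g.1 b)
        exact absurd (by rw [hc]; exact siegel_fix Q hge hgb h1 h2) h3
    apply hgW
    by_cases hsub : W.map (g⁻¹ : OQ Q).1.toLinearMap ≤ W
    · have : g⁻¹ ∈ Forms.stabSub Q W := Forms.mem_stabSub_of_le fun w hw => hsub ⟨w, hw, rfl⟩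
      simpa using inv_mem this
    obtain ⟨z, hz, hzW⟩ := SetLike.not_le_iff_exists.1 hsub
    obtain ⟨x, hx, u, hu, rfl⟩ := hsplit z
    have hle := hirr _ hinv x hx u hu (fun h => hzW (by simpa [h] using hx)) hz
    have heq := Submodule.eq_of_le_of_finrank_le hle (by
      rw [LinearEquiv.finrank_map_eq, hdimU]; omega)
    exact absurd heq.symm (hswap g⁻¹)
  -- a singular vector of `U` fixed by it
  obtain ⟨e, heS, he0, he⟩ := Cfsg.Agent.Forms.exists_singular_vector_of_three_le Q
    (S := OrthGen.perpSub Q (W ⊔ Submodule.span F (Set.range ![e', b']))) (by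
      rw [OrthGen.finrank_orthogonal_polar hB]
      have h1 : finrank F ↥(Submodule.span F (Set.range ![e', b'])) ≤ 2 :=
        (finrank_range_le_card (R := F) ![e', b']).trans_eq (Fintype.card_fin 2)
      have h2 := Submodule.finrank_add_le_finrank_add_finrank W
        (Submodule.span F (Set.range ![e', b']))
      omega)
  have heU : e ∈ U := fun w hw => heS w (Submodule.mem_sup_left hw)
  have hge : g'.1 e = e := hfix e
    (heS e' (Submodule.mem_sup_right (Submodule.subset_span ⟨0, rfl⟩)))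
    (heS b' (Submodule.mem_sup_right (Submodule.subset_span ⟨1, rfl⟩)))
  obtain ⟨f, e₂, f₂, hq⟩ := hpU.two_pairs_of_singular hBU.qNondeg (u := ⟨e, heU⟩)
    (fun h => he0 (congrArg Subtype.val h)) he
  obtain ⟨⟨-, hf, hef⟩, ⟨he₂, hf₂, hef₂⟩, hee₂, hef₂', hfe₂, hff₂⟩ := hq
  replace hf : Q (f : V) = 0 := hf
  replace hef : polar Q e (f : V) = 1 := hef
  replace he₂ : Q (e₂ : V) = 0 := he₂
  replace hf₂ : Q (f₂ : V) = 0 := hf₂
  replace hef₂ : polar Q (e₂ : V) (f₂ : V) = 1 := hef₂
  replace hee₂ : polar Q e (e₂ : V) = 0 := hee₂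
  replace hef₂' : polar Q e (f₂ : V) = 0 := hef₂'
  replace hfe₂ : polar Q (f : V) (e₂ : V) = 0 := hfe₂
  replace hff₂ : polar Q (f : V) (f₂ : V) = 0 := hff₂
  -- the components in `W` available at `e`
  let A : AddSubgroup V :=
    { carrier := {x | x ∈ W ∧ ∀ h : polar Q e x = 0, siegel Q he h ∈ M}
      zero_mem' := ⟨W.zero_mem, fun h => by rw [siegel_zero]; exact one_mem M⟩
      add_mem' := fun {a b} ha hb => ⟨W.add_mem ha.1 hb.1, fun h => by
        have ha' := hUW ha.1 heU
        have hb' := hUW hb.1 heU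
        have := mul_mem (ha.2 ha') (hb.2 hb')
        rwa [siegel_mul] at this⟩
      neg_mem' := fun {a} ha => ⟨W.neg_mem ha.1, fun h => by
        have := inv_mem (ha.2 (hUW ha.1 heU))
        rwa [siegel_inv] at this⟩ }
  have hAU : ∀ (x u : V) (hx : x ∈ W) (hu : u ∈ U) (h : polar Q e (x + u) = 0),
      siegel Q he h ∈ M → x ∈ A := by
    intro x u hx hu h hmem
    refine ⟨hx, fun hx' => ?_⟩
    have hu' : polar Q e u = 0 := by
      rw [polar_add_right, hx', zero_add] at h; exact h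
    have := mul_mem hmem (inv_mem (hTU he hu' heU hu).1)
    rw [siegel_inv, siegel_mul] at this
    convert this using 1
    exact siegel_congr Q _ _ _ _ rfl (by abel)
  obtain ⟨x₀, hx₀0, hx₀A⟩ : ∃ x, x ≠ 0 ∧ x ∈ A := by
    by_cases hcase : ∃ a ∈ U, polar Q e a = 0 ∧ g'.1 a ∉ U
    · obtain ⟨a, ha, hea, hga⟩ := hcase
      obtain ⟨x, hx, u, hu, hxu⟩ := hsplit (g'.1 a)
      have hea' : polar Q e (x + u) = 0 := by
        rw [hxu]; conv_lhs => rw [← hge]
        rw [OQ_polar, hea]
      refine ⟨x, fun h => hga (by rw [← hxu, h, zero_add]; exact hu), hAU x u hx hu hea' ?_⟩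
      have := mul_mem (mul_mem hg'M (hTU he hea heU ha).1) (inv_mem hg'M)
      rw [siegel_conj] at this
      convert this using 1
      exact siegel_congr Q _ _ _ _ hge.symm hxu
    push Not at hcase
    obtain ⟨x, hx, u, hu, hxu⟩ := hsplit (g'.1 (f : V))
    have hex' : polar Q e x = 0 := hUW hx heU
    have hxu' : polar Q x u = 0 := hWU hx hu
    have heu : polar Q e u = 1 := by
      have : polar Q (g'.1 e) (g'.1 (f : V)) = 1 := by rw [OQ_polar, hef]
      rw [hge, ← hxu, polar_add_right, hex', zero_add] at this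
      exact this
    have hx0 : x ≠ 0 := by
      intro hx0
      apply hg'W
      have hUinv : ∀ a ∈ U, g'.1 a ∈ U := by
        intro a ha
        have h1 : g'.1 (a - polar Q e a • (f : V)) ∈ U :=
          hcase _ (U.sub_mem ha (U.smul_mem _ f.2))
            (by rw [polar_sub_right, polar_smul_right, hef, smul_eq_mul, mul_one, sub_self])
        have h2 : g'.1 (f : V) ∈ U := by rw [← hxu, hx0, zero_add]; exact hu
        rw [map_sub, map_smul] at h1
        simpa using U.add_mem h1 (U.smul_mem (polar Q e a) h2)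
      refine Forms.mem_stabSub_of_le fun w hw => ?_
      rw [← LinearMap.BilinForm.orthogonal_orthogonal hnd hrefl W]
      have hUmap : U.map g'.1.toLinearMap = U := Submodule.eq_of_le_of_finrank_eq
        (by rintro _ ⟨a, ha, rfl⟩; exact hUinv a ha) (LinearEquiv.finrank_map_eq g'.1 U)
      intro y hy
      obtain ⟨a, ha, rfl⟩ : y ∈ U.map g'.1.toLinearMap := by rw [hUmap]; exact hy
      show polar Q (g'.1 a) (g'.1 w) = 0
      rw [OQ_polar, hUW hw ha]
    refine ⟨x, hx0, hx, fun h => ?_⟩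
    have hneg : polar Q e (-x) = 0 := by rw [polar_neg_right, h, neg_zero]
    set k := siegel Q he hneg * g' with hk'
    have hkC : k ∈ commutator (OQ Q) := mul_mem (hC ▸ siegel_mem_EQ Q he hneg) (hMK hg'M)
    have hkU : ∀ a ∈ U, k.1 a ∈ U := by
      intro a ha
      have h1 : g'.1 (a - polar Q e a • (f : V)) ∈ U :=
        hcase _ (U.sub_mem ha (U.smul_mem _ f.2))
          (by rw [polar_sub_right, polar_smul_right, hef, smul_eq_mul, mul_one, sub_self])
      have hd : a = (a - polar Q e a • (f : V)) + polar Q e a • (f : V) := by abel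
      rw [hd, map_add, map_smul]
      refine U.add_mem ?_ (U.smul_mem _ ?_)
      · rw [hk', Subgroup.coe_mul, LinearEquiv.mul_apply, siegel_fix Q he hneg ?_ ?_]
        · exact h1
        · conv_lhs => arg 2; rw [← hge]
          rw [OQ_polar, polar_sub_right, polar_smul_right, hef, smul_eq_mul, mul_one, sub_self]
        · rw [polar_neg_left, hWU hx h1, neg_zero]
      · have hxx : polar Q x x = Q x + Q x := by
          rw [polar_self, two_smul]
        have hkf : k.1 (f : V) = u + Q x • e := by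
          rw [hk', Subgroup.coe_mul, LinearEquiv.mul_apply, ← hxu, siegel_apply,
            polar_add_right, polar_add_right, hex', heu, polar_neg_left, polar_neg_left,
            QuadraticMap.map_neg, hxu', hxx]
          module
        rw [hkf]
        exact U.add_mem hu (U.smul_mem _ heU)
    have hkM : k ∈ M := hmemP hkC fun w hw => by
      rw [← LinearMap.BilinForm.orthogonal_orthogonal hnd hrefl W]
      have hUmap : U.map k.1.toLinearMap = U := Submodule.eq_of_le_of_finrank_eq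
        (by rintro _ ⟨a, ha, rfl⟩; exact hkU a ha) (LinearEquiv.finrank_map_eq k.1 U)
      intro y hy
      obtain ⟨a, ha, rfl⟩ : y ∈ U.map k.1.toLinearMap := by rw [hUmap]; exact hy
      show polar Q (k.1 a) (k.1 w) = 0
      rw [OQ_polar, hUW hw ha]
    have := mul_mem hg'M (inv_mem hkM)
    rw [hk', mul_inv_rev, mul_inv_cancel_left, siegel_inv] at this
    convert this using 1
    exact siegel_congr Q _ _ _ _ rfl (neg_neg x).symm
  -- closure under scalars
  have hAsmul : ∀ (c : F) {x : V}, x ∈ A → c • x ∈ A := by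
    intro c x hx
    rcases eq_or_ne c 0 with rfl | hc
    · simpa using A.zero_mem
    -- carry `e` to `e₂` and on to `c • e`
    have move : ∀ (p p' r r' : V), Q p = 0 → Q p' = 0 → Q r = 0 → Q r' = 0 →
        polar Q p p' = 1 → polar Q r r' = 1 → polar Q p r = 0 → polar Q p r' = 0 →
        polar Q p' r = 0 → p ∈ U → p' ∈ U → r ∈ U → r' ∈ U →
        ∃ m ∈ M, m.1 p = r ∧ ∀ w ∈ W, m.1 w = w := by
      intro p p' r r' hp1 hp2 hr1 hr2 hpp hrr hpr hpr' hp'r hpU hp'U hrU hr'U
      have h2 : polar Q r' (-p) = 0 := by rw [polar_neg_right, polar_comm Q r' p, hpr', neg_zero]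
      obtain ⟨m1, f1⟩ := hTU hp2 hp'r hp'U hrU
      obtain ⟨m2, f2⟩ := hTU hr2 h2 hr'U (U.neg_mem hpU)
      refine ⟨_, mul_mem m2 m1, ?_, fun w hw => by
        rw [Subgroup.coe_mul, LinearEquiv.mul_apply, f1 w hw, f2 w hw]⟩
      rw [Subgroup.coe_mul, LinearEquiv.mul_apply]
      have e1 : (siegel Q hp2 hp'r).1 p = p + r := by
        simp [polar_comm Q p' p, hpp, polar_comm Q r p, hpr, hr1]
      rw [e1]
      simp [polar_comm Q r' p, polar_comm Q r' r, hpr', hrr, hp1, hpr, polar_neg_left,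
        polar_add_right]
    obtain ⟨m1, hm1, hm1e, hm1W⟩ := move e f e₂ f₂ he hf he₂ hf₂ hef hef₂ hee₂ hef₂' hfe₂
      heU f.2 e₂.2 f₂.2
    obtain ⟨m2, hm2, hm2e, hm2W⟩ := move (e₂ : V) f₂ (c • e) (c⁻¹ • (f : V)) he₂ hf₂
      (by rw [QuadraticMap.map_smul, he, smul_zero]) (by rw [QuadraticMap.map_smul, hf, smul_zero])
      hef₂ (by rw [polar_smul_left, polar_smul_right, hef]; simp [hc])
      (by rw [polar_smul_right, polar_comm, hee₂, smul_zero])
      (by rw [polar_smul_right, polar_comm, hfe₂, smul_zero])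
      (by rw [polar_smul_right, polar_comm, hef₂', smul_zero])
      e₂.2 f₂.2 (U.smul_mem _ heU) (U.smul_mem _ f.2)
    refine ⟨W.smul_mem c hx.1, fun h => ?_⟩
    have h0 := hUW hx.1 heU
    have := mul_mem (mul_mem (mul_mem hm2 hm1) (hx.2 h0)) (inv_mem (mul_mem hm2 hm1))
    rw [siegel_conj] at this
    have hce : (m2 * m1).1 e = c • e := by
      rw [Subgroup.coe_mul, LinearEquiv.mul_apply, hm1e, hm2e]
    have hxfix : (m2 * m1).1 x = x := by
      rw [Subgroup.coe_mul, LinearEquiv.mul_apply, hm1W x hx.1, hm2W x hx.1]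
    have hcx : polar Q (c • e) x = 0 := by rw [polar_smul_left, h0, smul_zero]
    rw [siegel_congr Q _ _ (by rw [QuadraticMap.map_smul, he, smul_zero]) hcx hce hxfix,
      siegel_smul_left Q c he h0 _ h] at this
    exact this
  let AS : Submodule F V :=
    { A with smul_mem' := fun c {x} hx => hAsmul c hx }
  have hASW : AS ≤ W := fun x hx => hx.1
  -- invariance under the stabiliser of `e`
  have hAinv : ∀ {p : OQ Q}, p ∈ commutator (OQ Q) → (∀ w ∈ W, p.1 w ∈ W) → p.1 e = e →
      ∀ x ∈ AS, p.1 x ∈ AS := by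
    intro p hpC hpW hpe x hx
    refine ⟨hpW x hx.1, fun h => ?_⟩
    have := mul_mem (mul_mem (hmemP hpC hpW) (hx.2 (hUW hx.1 heU)))
      (inv_mem (hmemP hpC hpW))
    rw [siegel_conj] at this
    convert this using 1
    exact siegel_congr Q _ _ _ _ hpe.symm rfl
  set R := W ⊓ OrthGen.perpSub Q AS with hRdef
  have hnons : ∀ w ∈ W, Q w ≠ 0 → w ∈ AS ∨ w ∈ R := by
    intro w hw hQw
    by_cases hwR : ∀ a ∈ AS, polar Q a w = 0
    · exact Or.inr ⟨hw, hwR⟩
    push Not at hwR
    obtain ⟨a, ha, haw⟩ := hwR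
    refine Or.inl ?_
    set u := Q w • (e₂ : V) + (f₂ : V) with hudef
    have huU : u ∈ U := U.add_mem (U.smul_mem _ e₂.2) f₂.2
    have hQu : Q u = Q w := by
      rw [hudef, qf_add, QuadraticMap.map_smul, polar_smul_left, he₂, hf₂, hef₂]
      simp
    have hue : polar Q u e = 0 := by
      rw [polar_comm, hudef, polar_add_right, polar_smul_right, hee₂, hef₂', smul_zero, add_zero]
    have hpC : reflQ Q w hQw * reflQ Q u (hQu ▸ hQw) ∈ commutator (OQ Q) :=
      hC ▸ reflQ_mul_mem_EQ hB hp hQw _ hQu.symm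
    have hpx : ∀ z ∈ W, (reflQ Q w hQw * reflQ Q u (hQu ▸ hQw)).1 z = (reflQ Q w hQw).1 z :=
      fun z hz => by
        rw [Subgroup.coe_mul, LinearEquiv.mul_apply, OrthGen.reflQ_fix Q _ (hUW hz huU)]
    have h1 := hAinv hpC (fun z hz => by
      rw [hpx z hz, reflQ_apply]; exact W.sub_mem hz (W.smul_mem _ hw)) (by
      rw [Subgroup.coe_mul, LinearEquiv.mul_apply, OrthGen.reflQ_fix Q _ hue,
        OrthGen.reflQ_fix Q _ (hWU hw heU)]) a ha
    rw [hpx a ha.1, reflQ_apply] at h1
    have h2 := AS.sub_mem ha h1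
    rw [sub_sub_cancel] at h2
    have hne : (Q w)⁻¹ * polar Q w a ≠ 0 :=
      mul_ne_zero (inv_ne_zero hQw) (by rw [polar_comm]; exact haw)
    have h3 := AS.smul_mem ((Q w)⁻¹ * polar Q w a)⁻¹ h2
    rwa [inv_smul_smul₀ hne] at h3
  have hspan : W = AS ⊔ R := by
    refine le_antisymm ?_ (sup_le hASW inf_le_left)
    conv_lhs => rw [← span_nonsingular_eq hW fun h2 hv => by
      obtain ⟨c, hc, hc2⟩ := hex h2 hv
      exact ⟨c, hc, fun h => hc2 (by rw [h, one_pow])⟩]
    refine Submodule.span_le.2 fun w hw => ?_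
    rcases hnons w hw.1 hw.2 with h | h
    · exact Submodule.mem_sup_left h
    · exact Submodule.mem_sup_right h
  have hAR : ∀ a ∈ AS, ∀ r ∈ R, polar Q a r = 0 := fun a ha r hr => hr.2 a ha
  have hdAR : ∀ z, z ∈ AS → z ∈ R → z = 0 := by
    intro z hzA hzR
    by_contra hz
    obtain ⟨y, hy, hzy⟩ := hW z (hASW hzA) hz
    rw [hspan] at hy
    obtain ⟨a, ha, r, hr, rfl⟩ := Submodule.mem_sup.1 hy
    exact hzy (by rw [polar_add_right, hAR z hzA r hr, polar_comm Q z a, hAR a ha z hzR, add_zero])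
  by_cases hR0 : R = ⊥
  · have hAW : W ≤ AS := by
      intro w hw
      rw [hspan, hR0, sup_bot_eq] at hw
      exact hw
    have hecentre : e ∈ siegelCentres Q M := ⟨he, fun a ha => by
      obtain ⟨x, hx, u, hu, hxu⟩ := hsplit a
      have hx' := hUW hx heU
      have hu' : polar Q e u = 0 := by rwa [← hxu, polar_add_right, hx', zero_add] at ha
      have := mul_mem ((hAW hx).2 hx') (hTU he hu' heU hu).1
      rw [siegel_mul] at this
      convert this using 1
      exact siegel_congr Q _ _ _ _ rfl hxu.symm⟩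
    set b := (e₂ : V) + f₂ with hbdef
    have hfb : polar Q (f : V) b = 0 := by rw [hbdef, polar_add_right, hfe₂, hff₂, add_zero]
    have hQb : Q b = 1 := by rw [hbdef, qf_add, he₂, hf₂, hef₂]; simp
    have h2 := map_mem_siegelCentres hecentre (hTU hf hfb f.2 (U.add_mem e₂.2 f₂.2)).1
    refine commutator_le_of_centre_pair hB hn hecentre h2 ?_
    have hee : polar Q e e = 0 := by rw [polar_self, he, smul_zero]
    have hbe : polar Q b e = 0 := by
      rw [polar_comm, hbdef, polar_add_right, hee₂, hef₂', add_zero]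
    rw [siegel_apply, polar_comm Q (f : V) e, hef, hQb, hbe]
    simp [polar_sub_left, polar_add_left, hee, hbe, polar_comm Q (f : V) e, hef]
  exfalso
  have hmix : ∀ a ∈ AS, a ≠ 0 → ∀ r ∈ R, r ≠ 0 → Q (a + r) = 0 := by
    intro a ha ha0 r hr hr0
    by_contra hne
    rcases hnons _ (W.add_mem (hASW ha) hr.1) hne with h | h
    · exact hr0 (hdAR r (by simpa using AS.sub_mem h ha) hr)
    · exact ha0 (hdAR a ha (by simpa using R.sub_mem h hr))
  have hAS0 : AS ≠ ⊥ := fun h => hx₀0 (by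
    have : x₀ ∈ AS := hx₀A
    simpa [h] using this)
  -- a mixed singular vector mixes the two summands
  have key : ∀ A' R' : Submodule F V, A' ≤ W → R' ≤ W →
      (∀ a ∈ A', ∀ r ∈ R', polar Q a r = 0) →
      (∀ z, z ∈ A' → z ∈ R' → z = 0) → W ≤ A' ⊔ R' →
      (∀ a ∈ A', a ≠ 0 → ∀ r ∈ R', r ≠ 0 → Q (a + r) = 0) → A' ≠ ⊥ →
      (∀ {p : OQ Q}, p ∈ commutator (OQ Q) → (∀ w ∈ W, p.1 w ∈ W) → p.1 e = e →
        ∀ x ∈ A', p.1 x ∈ A') →
      finrank F R' ≤ 1 := by
    intro A' R' hA' hR' horth hd hsup hmixed hA0 hinv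
    by_contra hcon
    obtain ⟨a, ha, ha0⟩ := A'.exists_mem_ne_zero_of_ne_bot hA0
    have hR'0 : R' ≠ ⊥ := fun h => hcon (by rw [h, finrank_bot]; omega)
    obtain ⟨r, hr, hr0⟩ := R'.exists_mem_ne_zero_of_ne_bot hR'0
    obtain ⟨r', hr', hrr'⟩ : ∃ r' ∈ R', r' ∉ F ∙ r := by
      by_contra h
      push Not at h
      exact hcon ((Submodule.finrank_mono (show R' ≤ F ∙ r from h)).trans
        (finrank_span_singleton hr0).le)
    obtain ⟨a₁, ha₁, haa₁⟩ : ∃ a₁ ∈ A', polar Q a a₁ = 1 := by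
      obtain ⟨y, hy, hay⟩ := hW a (hA' ha) ha0
      obtain ⟨p, hp', q, hq', rfl⟩ := Submodule.mem_sup.1 (hsup hy)
      rw [polar_add_right, horth a ha q hq', add_zero] at hay
      exact ⟨(polar Q a p)⁻¹ • p, A'.smul_mem _ hp', by
        rw [polar_smul_right, smul_eq_mul, inv_mul_cancel₀ hay]⟩
    set y := a + r with hydef
    set b := r' + (-polar Q r r') • a₁ with hbdef
    have hy : Q y = 0 := hmixed a ha ha0 r hr hr0
    have hyW : y ∈ W := W.add_mem (hA' ha) (hR' hr)
    have hbW : b ∈ W := W.add_mem (hR' hr') (W.smul_mem _ (hA' ha₁))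
    have hya : polar Q y a₁ = 1 := by
      rw [hydef, polar_add_left, haa₁, polar_comm Q r a₁, horth a₁ ha₁ r hr, add_zero]
    have hyb : polar Q y b = 0 := by
      rw [hbdef, polar_add_right, polar_smul_right, hya, hydef, polar_add_left,
        horth a ha r' hr']
      simp
    have hT := hinv (p := siegel Q hy hyb) (hC ▸ siegel_mem_EQ Q hy hyb)
      (fun w hw => by
        rw [siegel_apply]
        exact W.sub_mem (W.sub_mem (W.add_mem hw (W.smul_mem _ hbW)) (W.smul_mem _ hyW))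
          (W.smul_mem _ hyW))
      (siegel_fix Q hy hyb (hWU hyW heU) (hWU hbW heU)) a₁ ha₁
    rw [siegel_apply, hya] at hT
    set l := polar Q b a₁ + Q b * 1 with hl
    have h3 : r' - l • r ∈ A' := by
      have h4 := A'.sub_mem (A'.sub_mem hT ha₁)
        (A'.sub_mem (A'.smul_mem (-polar Q r r') ha₁) (A'.smul_mem l ha))
      convert h4 using 1
      rw [hl, hydef, hbdef]
      module
    have h5 := hd _ h3 (R'.sub_mem hr' (R'.smul_mem _ hr))
    exact hrr' (Submodule.mem_span_singleton.2 ⟨l, (sub_eq_zero.1 h5).symm⟩)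
  have hR1 : finrank F R ≤ 1 := key AS R hASW inf_le_left hAR hdAR hspan.le hmix hAS0 hAinv
  have hA1 : finrank F AS ≤ 1 := by
    refine key R AS inf_le_left hASW (fun r hr a ha => by rw [polar_comm]; exact hAR a ha r hr)
      (fun z h1 h2 => hdAR z h2 h1) (by rw [sup_comm]; exact hspan.le)
      (fun r hr hr0 a ha ha0 => by rw [add_comm]; exact hmix a ha ha0 r hr hr0) hR0 ?_
    intro p hpC hpW hpe r hr
    refine ⟨hpW r hr.1, fun a ha => ?_⟩
    have hmap : AS.map p.1.toLinearMap = AS := Submodule.eq_of_le_of_finrank_eq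
      (by rintro _ ⟨x, hx, rfl⟩; exact hAinv hpC hpW hpe x hx)
      (LinearEquiv.finrank_map_eq p.1 AS)
    obtain ⟨a', ha', rfl⟩ : a ∈ AS.map p.1.toLinearMap := by rw [hmap]; exact ha
    show polar Q (p.1 a') (p.1 r) = 0
    rw [OQ_polar, hAR a' ha' r hr]
  have hk' : finrank F W = 2 := by
    have h1 := Submodule.one_le_finrank_iff.2 hAS0
    have h2 := Submodule.one_le_finrank_iff.2 hR0
    have h3 := Submodule.finrank_sup_add_finrank_inf_eq AS R
    rw [show AS ⊓ R = ⊥ from eq_bot_iff.2 fun z hz => hdAR z hz.1 hz.2, finrank_bot,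
      ← hspan] at h3
    omega
  obtain ⟨a, ha, ha0⟩ := AS.exists_mem_ne_zero_of_ne_bot hAS0
  obtain ⟨r, hr, hr0⟩ := R.exists_mem_ne_zero_of_ne_bot hR0
  have har := hmix a ha ha0 r hr hr0
  have har0 : a + r ≠ 0 := fun h => ha0 (hdAR a ha (by
    rw [eq_neg_of_add_eq_zero_left h]; exact R.neg_mem hr))
  obtain ⟨c, hc, hc2⟩ := hex hk' ⟨a + r, W.add_mem (hASW ha) hr.1, har0, har⟩
  have har' := hmix _ (AS.smul_mem c ha) (smul_ne_zero hc ha0) r hr hr0
  rw [qf_add, hAR a ha r hr, add_zero] at har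
  rw [qf_add, QuadraticMap.map_smul, polar_smul_left, hAR a ha r hr, smul_zero, add_zero,
    smul_eq_mul] at har'
  have hQa : Q a = 0 := by
    have : (c ^ 2 - 1) * Q a = 0 := by linear_combination har' - har
    exact (mul_eq_zero.1 this).resolve_left (sub_ne_zero.2 hc2)
  -- a singular line cannot be non-degenerate
  obtain ⟨y, hy, hay⟩ := hW a (hASW ha) ha0
  rw [hspan] at hy
  obtain ⟨p, hp', q, hq', rfl⟩ := Submodule.mem_sup.1 hy
  have hAspan : AS = F ∙ a := (Submodule.eq_of_le_of_finrank_le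
    ((Submodule.span_singleton_le_iff_mem _ _).2 ha) (by rw [finrank_span_singleton ha0]; omega)).symm
  obtain ⟨l, rfl⟩ := Submodule.mem_span_singleton.1 (hAspan ▸ hp')
  rw [polar_add_right, hAR a ha q hq', polar_smul_right, polar_self, hQa] at hay
  simp at hay

end Cfsg.Agent.GeoClasses
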