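import Cfsg.Agent.GeoClasses.OrthMaxBase

/-!
Stabilisers of totally singular subspaces are maximal in `Ω(Q)`.
-/

set_option autoImplicit false

namespace Cfsg.Agent.GeoClasses

open QuadraticMap Module Cfsg.Agent.Classical

universe u v

variable {F : Type u} [Field F] [Finite F] {V : Type v} [AddCommGroup V] [Module F V]
  [FiniteDimensional F V] {Q : QuadraticForm F V}

/-- The singular vectors all of whose Siegel transformations lie in `M`. -/
def siegelCentres (Q : QuadraticForm F V) (M : Subgroup (OQ Q)) : Set V :=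
  {e | ∃ he : Q e = 0, ∀ a (ha : polar Q e a = 0), siegel Q he ha ∈ M}

omit [Finite F] [FiniteDimensional F V] in
lemma smul_mem_siegelCentres {M : Subgroup (OQ Q)} {e : V} (h : e ∈ siegelCentres Q M) (c : F) :
    c • e ∈ siegelCentres Q M := by
  obtain ⟨he, h⟩ := h
  refine ⟨by rw [QuadraticMap.map_smul, he, smul_zero], fun a ha => ?_⟩
  rcases eq_or_ne c 0 with rfl | hc
  · convert one_mem M using 1
    ext v
    simp
  have ha' : polar Q e a = 0 := by
    rw [polar_smul_left, smul_eq_mul] at ha
    exact (mul_eq_zero.1 ha).resolve_left hc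
  rw [siegel_smul_left Q c he ha' _ (by rw [polar_smul_right, ha', smul_zero])]
  exact h _ _

omit [Finite F] [FiniteDimensional F V] in
lemma map_mem_siegelCentres {M : Subgroup (OQ Q)} {e : V} (h : e ∈ siegelCentres Q M) {g : OQ Q}
    (hg : g ∈ M) : g.1 e ∈ siegelCentres Q M := by
  obtain ⟨he, h⟩ := h
  refine ⟨by simp [he], fun a ha => ?_⟩
  have ha' : polar Q e (g.1.symm a) = 0 := by
    rw [← OQ_polar g, LinearEquiv.apply_symm_apply]; exact ha
  have := mul_mem (mul_mem hg (h _ ha')) (inv_mem hg)
  rw [siegel_conj] at this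
  convert this using 1
  exact siegel_congr Q _ _ _ _ rfl (LinearEquiv.apply_symm_apply _ _).symm

omit [Finite F] [FiniteDimensional F V] in
/-- A centre moves to every singular vector non-orthogonal to a second centre. -/
lemma mem_siegelCentres_of_pair {M : Subgroup (OQ Q)} {e y u : V} (he : e ∈ siegelCentres Q M)
    (hy : y ∈ siegelCentres Q M) (hey : polar Q y e ≠ 0) (hu : Q u = 0)
    (huy : polar Q y u ≠ 0) : u ∈ siegelCentres Q M := by
  obtain ⟨hy0, hy'⟩ := id hy
  have he1 := smul_mem_siegelCentres he (polar Q y e)⁻¹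
  obtain ⟨ha, -, h2⟩ := siegel_move hy0 (y := (polar Q y e)⁻¹ • e) (z := (polar Q y u)⁻¹ • u)
    (by rw [QuadraticMap.map_smul, QuadraticMap.map_smul, he.choose, hu, smul_zero, smul_zero])
    (by rw [polar_smul_right, smul_eq_mul, inv_mul_cancel₀ hey])
    (by rw [polar_smul_right, smul_eq_mul, inv_mul_cancel₀ huy])
  have := smul_mem_siegelCentres (map_mem_siegelCentres he1 (hy' _ ha)) (polar Q y u)
  rwa [h2, smul_inv_smul₀ huy] at this

/-- Stabilisers of totally singular subspaces are maximal in `Ω`. -/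
theorem orth_parabolic_maximal (hB : BNondeg Q) (hn : 5 ≤ finrank F V) {W : Submodule F V}
    (hW0 : W ≠ ⊥) (hW : ∀ w ∈ W, Q w = 0)
    (hex : 2 * (finrank F W + 1) ≠ finrank F V ∨
      ¬ ∃ S : Submodule F V, (∀ s ∈ S, Q s = 0) ∧ 2 * finrank F S = finrank F V) :
    Cfsg.Geo.IsMaximalIn (commutator (OQ Q)) (Forms.stabSub Q W ⊓ commutator (OQ Q)) := by
  have hC := commutator_eq_EQ hB hn
  have hp := OrthGen.hasTwoPairs_of_five_le hB hn
  have hpolW : ∀ a ∈ W, ∀ b ∈ W, polar Q a b = 0 := fun a ha b hb =>
    Forms.polar_eq_zero_of_totallySingular hW ha hb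
  have hstab : ∀ {k : OQ Q}, k ∈ Forms.stabSub Q W → ∀ w ∈ W, k.1 w ∈ W := by
    intro k hk w hw
    have : k.1 w ∈ W.map k.1.toLinearMap := ⟨w, hw, rfl⟩
    rwa [show W.map k.1.toLinearMap = W from hk] at this
  refine ⟨lt_of_le_not_ge inf_le_right fun hle => ?_, fun M hM hMK => ?_⟩
  · obtain ⟨w, hw, hw0⟩ := W.exists_mem_ne_zero_of_ne_bot hW0
    obtain ⟨f, hf, hwf⟩ := Forms.exists_singular_partner hB (hW w hw) hw0
    have hf0 : f ≠ 0 := fun h => by simp [h] at hwf
    obtain ⟨g, hg, hgw⟩ := EQ_transitive_singular hB.qNondeg hp hw0 (hW w hw) hf0 hf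
    have := hstab (hle (hC ▸ hg)).1 w hw
    rw [hgw] at this
    rw [hpolW w hw f this] at hwf
    exact zero_ne_one hwf
  by_cases hMW : M ≤ Forms.stabSub Q W
  · exact Or.inl (le_antisymm (le_inf hMW hMK) hM)
  refine Or.inr (le_antisymm hMK ?_)
  have hmemP : ∀ {e a : V} (he : Q e = 0) (ha : polar Q e a = 0),
      (∀ w ∈ W, (siegel Q he ha).1 w ∈ W) → siegel Q he ha ∈ M := fun he ha h =>
    hM ⟨Forms.mem_stabSub_of_le h, by rw [hC]; exact siegel_mem_EQ Q he ha⟩
  have hWX : ∀ e ∈ W, e ∈ siegelCentres Q M := fun e he => ⟨hW e he, fun a ha =>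
    hmemP _ ha fun w hw => by
      rw [siegel_apply, hpolW e he w hw]
      simpa using W.sub_mem hw (W.smul_mem _ he)⟩
  by_cases hpair : ∃ e ∈ siegelCentres Q M, ∃ y ∈ siegelCentres Q M, polar Q y e ≠ 0
  · obtain ⟨e, he, y, hy, hey⟩ := hpair
    have hall : ∀ u, Q u = 0 → u ∈ siegelCentres Q M := by
      intro u hu
      rcases eq_or_ne u 0 with rfl | hu0
      · simpa using smul_mem_siegelCentres he 0
      by_cases hyu : polar Q y u = 0
      · have hy0 : y ≠ 0 := fun h => hey (by simp [h])
        obtain ⟨z, hz, h1, h2⟩ := exists_singular_not_orth' hB.qNondeg hp hy0 hy.choose hu0 hu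
        have hzX := mem_siegelCentres_of_pair he hy hey hz h1
        exact mem_siegelCentres_of_pair hy hzX (by rw [polar_comm]; exact h1) hu
          (by rw [polar_comm]; exact h2)
      · exact mem_siegelCentres_of_pair he hy hey hu hyu
    rw [hC, EQ, Subgroup.closure_le]
    rintro _ ⟨u, a, hu, ha, rfl⟩
    exact (hall u hu).choose_spec a ha
  exfalso
  push Not at hpair
  -- the centres span a totally singular invariant subspace
  set S := Submodule.span F (siegelCentres Q M) with hSdef
  have hS1 : ∀ x ∈ S, ∀ e ∈ siegelCentres Q M, polar Q x e = 0 := by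
    intro x hx e he
    induction hx using Submodule.span_induction with
    | mem y hy => exact hpair e he y hy
    | zero => simp
    | add a b _ _ ha hb => rw [polar_add_left, ha, hb, add_zero]
    | smul c a _ ha => rw [polar_smul_left, ha, smul_zero]
  have hS : ∀ x ∈ S, Q x = 0 := by
    intro x hx
    induction hx using Submodule.span_induction with
    | mem y hy => exact hy.choose
    | zero => simp
    | add a b ha hb iha ihb =>
      rw [qf_add, iha, ihb]
      suffices polar Q a b = 0 by rw [this]; simp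
      rw [polar_comm]
      clear iha ihb
      induction ha using Submodule.span_induction with
      | mem y hy => exact hS1 b hb y hy
      | zero => simp
      | add c d _ _ hc hd => rw [polar_add_right, hc, hd, add_zero]
      | smul c d _ hd => rw [polar_smul_right, hd, smul_zero]
    | smul c a _ ha => rw [QuadraticMap.map_smul, ha, smul_zero]
  have hSinv : ∀ g ∈ M, ∀ x ∈ S, g.1 x ∈ S := by
    intro g hg x hx
    induction hx using Submodule.span_induction with
    | mem y hy => exact Submodule.subset_span (map_mem_siegelCentres hy hg)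
    | zero => simp
    | add a b _ _ ha hb => rw [map_add]; exact S.add_mem ha hb
    | smul c a _ ha => rw [map_smul]; exact S.smul_mem c ha
  have hWS : W ≤ S := fun w hw => Submodule.subset_span (hWX w hw)
  obtain ⟨s, hsS, hsW⟩ := SetLike.exists_of_lt (lt_of_le_of_ne hWS fun h => hMW fun g hg =>
    Forms.mem_stabSub_of_le fun w hw => by rw [h] at hw ⊢; exact hSinv g hg w hw)
  have hnd : (polarBilin Q).Nondegenerate :=
    ⟨fun a ha => hB a ha, fun a ha => hB a fun y => (polar_comm Q a y).trans (ha y)⟩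
  have hrefl : LinearMap.BilinForm.IsRefl (polarBilin Q) := fun a b h => by
    simpa [polar_comm Q b a] using h
  obtain ⟨y, hyW, hsy⟩ : ∃ y ∈ OrthGen.perpSub Q W, polar Q s y = 1 := by
    by_contra hcon
    push Not at hcon
    apply hsW
    rw [← LinearMap.BilinForm.orthogonal_orthogonal hnd hrefl W]
    intro y hy
    show polar Q y s = 0
    rw [polar_comm]
    by_contra hne
    exact hcon ((polar Q s y)⁻¹ • y) (Submodule.smul_mem _ _ hy)
      (by rw [polar_smul_right, smul_eq_mul, inv_mul_cancel₀ hne])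
  set z := y - Q y • s with hzdef
  have hss : polar Q s s = 0 := Forms.polar_eq_zero_of_totallySingular hS hsS hsS
  have hz : Q z = 0 := by
    rw [hzdef, qf_sub, QuadraticMap.map_smul, hS s hsS, polar_smul_right, polar_comm Q y s, hsy]
    simp
  have hsz : polar Q s z = 1 := by rw [hzdef, polar_sub_right, polar_smul_right, hsy, hss]; simp
  have hzW : ∀ w ∈ W, polar Q w z = 0 := fun w hw => by
    have e : polar Q w y = 0 := hyW w hw
    rw [hzdef, polar_sub_right, polar_smul_right, e,
      Forms.polar_eq_zero_of_totallySingular hS (hWS hw) hsS]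
    simp
  obtain ⟨x, hx, hxQ⟩ : ∃ x ∈ OrthGen.perpSub Q (W ⊔ (F ∙ z)), Q x ≠ 0 := by
    by_contra hcon
    push Not at hcon
    have h1 := OrthGen.two_mul_finrank_le hB _ hcon
    rw [OrthGen.finrank_orthogonal_polar hB] at h1
    have h2 : finrank F ↥(W ⊔ (F ∙ z)) ≤ finrank F W + 1 := by
      refine (Submodule.finrank_add_le_finrank_add_finrank _ _).trans ?_
      gcongr
      exact (finrank_span_le_card ({z} : Set V)).trans (by simp)
    have h3 := OrthGen.two_mul_finrank_le hB S hS
    have h4 : finrank F W + 1 ≤ finrank F S := Submodule.finrank_lt_finrank_of_lt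
      (lt_of_le_of_ne hWS fun h => hsW (h ▸ hsS))
    rcases hex with h | h
    · omega
    · exact h ⟨S, hS, by omega⟩
  have hxW : ∀ w ∈ W, polar Q x w = 0 := fun w hw => by
    rw [polar_comm]; exact hx w (Submodule.mem_sup_left hw)
  have hzx : polar Q z x = 0 := hx z (Submodule.mem_sup_right (Submodule.mem_span_singleton_self z))
  have hT : siegel Q hz hzx ∈ M := hmemP hz hzx fun w hw => by
    rw [siegel_fix Q hz hzx (by rw [polar_comm]; exact hzW w hw) (hxW w hw)]
    exact hw
  have key := Forms.polar_eq_zero_of_totallySingular hS hsS (hSinv _ hT s hsS)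
  rw [siegel_apply, polar_comm Q z s, hsz, polar_sub_right, polar_sub_right, polar_add_right,
    polar_smul_right, polar_smul_right, polar_smul_right, hss, hsz, polar_comm Q s x] at key
  simp at key
  exact hxQ key

end Cfsg.Agent.GeoClasses

namespace Cfsg.Agent.GeoClasses

open Module Cfsg.Geo

/-- Matrix form of `orth_parabolic_maximal`. -/
theorem omegaGL_parabolic_maximal {K : Type*} [Field K] [Finite K] {ι : Type} [Fintype ι]
    [DecidableEq ι] {Q : (ι → K) → K} (hQ : IsNondegenerateQuadraticForm Q)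
    (hn : 5 ≤ Fintype.card ι) {W : Submodule K (ι → K)} (hW0 : W ≠ ⊥)
    (hW : IsTotallySingularQuad Q W)
    (hex : 2 * (finrank K W + 1) ≠ Fintype.card ι ∨ ¬ IsPlusTypeOn Q ⊤) :
    IsMaximalIn (omegaGL Q) (subspaceStabilizer W ⊓ omegaGL Q) := by
  have hfr : finrank K (ι → K) = Fintype.card ι := finrank_pi K
  have hmax := orth_parabolic_maximal (Q := toQF hQ) (bNondeg_toQF hQ) (by omega) hW0 hW
    (hex.imp (fun h => by rwa [hfr]) fun h hS => h <| by
      obtain ⟨S, hS, hd⟩ := hS
      exact ⟨S, le_top, hS, by rw [finrank_top]; exact hd⟩)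
  have := isMaximalIn_map (oqToGL_injective (toQF hQ)) hmax
  rwa [map_oqToGL_stabSub, map_oqToGL_commutator, coe_toQF] at this

end Cfsg.Agent.GeoClasses
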