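import Cfsg.Agent.GeoClasses.TransvGen
import Cfsg.Agent.ClassicalMax.SympProper

/-!
Stabilisers of totally singular and of non-degenerate subspaces are maximal in the symplectic group.
-/

set_option autoImplicit false

namespace Cfsg.Agent.GeoClasses

open Matrix Cfsg.Geo Cfsg.Agent.Forms Cfsg.Agent.ClassicalMax
open scoped MatrixGroups Matrix

variable {F : Type*} [Field F] {m : ℕ}

local notation "V" => (Fin m ⊕ Fin m → F)
local notation "β" => sympBil m F

lemma spB_swap (u v : V) : β v u = - β u v := (LinearMap.BilinForm.IsAlt.neg_eq sympBil_isAlt u v).symm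

lemma spB_isRefl : LinearMap.BilinForm.IsRefl β := LinearMap.BilinForm.IsAlt.isRefl sympBil_isAlt

lemma mem_spGL_iff {g : GL (Fin m ⊕ Fin m) F} :
    g ∈ Cfsg.spGL m F ↔ ∀ u v : V,
      β ((g : Matrix (Fin m ⊕ Fin m) (Fin m ⊕ Fin m) F) *ᵥ u)
        ((g : Matrix (Fin m ⊕ Fin m) (Fin m ⊕ Fin m) F) *ᵥ v) = β u v := by
  simp only [sympBil_apply]
  exact Iff.rfl

lemma spTau_apply (v : V) (c : F) (x : V) :
    (spTau v c : Matrix (Fin m ⊕ Fin m) (Fin m ⊕ Fin m) F) *ᵥ x = x + (c * β x v) • v := by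
  rw [spTau_mulVec, sympBil_apply]

lemma spGL_le_of_spTau_mem {M : Subgroup (GL (Fin m ⊕ Fin m) F)}
    (h : ∀ v c, spTau v c ∈ M) : Cfsg.spGL m F ≤ M := by
  intro g hg
  set j : Matrix.symplecticGroup (Fin m) F →* GL (Fin m ⊕ Fin m) F :=
    (Cfsg.spGL m F).subtype.comp (Linear.Symp.toSpGL (F := F) (m := m)).toMonoidHom with hj
  have hK : M.comap j = ⊤ := Linear.Symp.closure_tau_le fun v c => h v c
  have : j (Linear.Symp.toSpGL.symm ⟨g, hg⟩) ∈ M := by
    rw [← Subgroup.mem_comap, hK]; trivial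
  simpa [hj] using this

/-- The vectors all of whose symplectic transvections lie in `M`. -/
def spCentres (M : Subgroup (GL (Fin m ⊕ Fin m) F)) : Set V :=
  {v | ∀ c, spTau v c ∈ M}

lemma smul_mem_spCentres {M : Subgroup (GL (Fin m ⊕ Fin m) F)} {v : V} (hv : v ∈ spCentres M)
    (a : F) : a • v ∈ spCentres M := by
  intro c
  convert hv (c * a * a) using 1
  refine gl_ext_mulVec fun x => ?_
  simp only [spTau_apply, map_smul, smul_eq_mul, smul_smul]
  congr 2
  ring

lemma mulVec_mem_spCentres {M : Subgroup (GL (Fin m ⊕ Fin m) F)} {v : V} (hv : v ∈ spCentres M)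
    {g : GL (Fin m ⊕ Fin m) F} (hg : g ∈ M) (hgs : g ∈ Cfsg.spGL m F) :
    (g : Matrix (Fin m ⊕ Fin m) (Fin m ⊕ Fin m) F) *ᵥ v ∈ spCentres M := by
  intro c
  convert mul_mem (mul_mem hg (hv c)) (inv_mem hg) using 1
  refine gl_ext_mulVec fun x => ?_
  have := mem_spGL_iff.1 hgs (((g⁻¹ : GL (Fin m ⊕ Fin m) F) : Matrix _ _ F) *ᵥ x) v
  rw [mulVec_inv_cancel] at this
  simp only [Units.val_mul, ← Matrix.mulVec_mulVec, spTau_apply, Matrix.mulVec_add,
    Matrix.mulVec_smul, mulVec_inv_cancel, this]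

/-- Two centres that are not orthogonal span a subspace of centres. -/
lemma plane_mem_spCentres {M : Subgroup (GL (Fin m ⊕ Fin m) F)} {a b : V}
    (ha : a ∈ spCentres M) (hb : b ∈ spCentres M) (hab : β a b ≠ 0) (x y : F) :
    x • a + y • b ∈ spCentres M := by
  have key : ∀ t : F, a + t • b ∈ spCentres M := fun t => by
    have := mulVec_mem_spCentres ha (hb (t / β a b)) (spTau_mem _ _)
    rwa [spTau_apply, div_mul_cancel₀ _ hab] at this
  rcases eq_or_ne x 0 with rfl | hx
  · simpa using smul_mem_spCentres hb y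
  · have := smul_mem_spCentres (key (x⁻¹ * y)) x
    rwa [smul_add, smul_smul, mul_inv_cancel_left₀ hx] at this

/-- A vector space is not the union of two hyperplanes. -/
lemma exists_ne_zero_of_two {S : Submodule F V} {φ ψ : V →ₗ[F] F} (hφ : ∃ s ∈ S, φ s ≠ 0)
    (hψ : ∃ s ∈ S, ψ s ≠ 0) : ∃ s ∈ S, φ s ≠ 0 ∧ ψ s ≠ 0 := by
  obtain ⟨s, hs, h1⟩ := hφ
  obtain ⟨t, ht, h2⟩ := hψ
  by_cases h3 : ψ s = 0
  · by_cases h4 : φ t = 0
    · exact ⟨s + t, S.add_mem hs ht, by simp [h4, h1], by simp [h3, h2]⟩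
    · exact ⟨t, ht, h4, h2⟩
  · exact ⟨s, hs, h1, h3⟩

/-- A subspace of centres containing its orthogonal extends by any further centre. -/
lemma sup_span_subset_spCentres {M : Subgroup (GL (Fin m ⊕ Fin m) F)} {S : Submodule F V}
    (hS : (S : Set V) ⊆ spCentres M) (hSo : LinearMap.BilinForm.orthogonal β S ≤ S) {x : V}
    (hx : x ∈ spCentres M) (hxS : x ∉ S) :
    ((S ⊔ (F ∙ x) : Submodule F V) : Set V) ⊆ spCentres M := by
  have hne : ∀ y, y ∉ S → ∃ s ∈ S, β s y ≠ 0 := fun y hy => by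
    by_contra hcon
    push Not at hcon
    exact hy (hSo hcon)
  have one : ∀ s ∈ S, x + s ∈ spCentres M := by
    intro s hs
    by_cases hxs : β x s = 0
    · have hxs' : x + s ∉ S := fun h => hxS (by simpa using S.sub_mem h hs)
      obtain ⟨t, ht, h1, h2⟩ := exists_ne_zero_of_two (φ := (β).flip x) (ψ := (β).flip (x + s))
        (hne x hxS) (hne _ hxs')
      change β t x ≠ 0 at h1
      change β t (x + s) ≠ 0 at h2
      have hxt : x + t ∈ spCentres M := by
        simpa using plane_mem_spCentres hx (hS ht) (by rw [spB_swap t x]; simpa using h1) 1 1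
      have hval : β (x + t) (s - t) = β t (x + s) := by
        simp only [map_add, map_sub, LinearMap.add_apply, hxs, sympBil_isAlt.self_eq_zero,
          spB_swap t x]
        ring
      have := plane_mem_spCentres hxt (hS (S.sub_mem hs ht)) (by rw [hval]; exact h2) 1 1
      simpa using this
    · simpa using plane_mem_spCentres hx (hS hs) hxs 1 1
  intro z hz
  obtain ⟨s, hs, w, hw, rfl⟩ := Submodule.mem_sup.1 hz
  obtain ⟨a, rfl⟩ := Submodule.mem_span_singleton.1 hw
  rcases eq_or_ne a 0 with rfl | ha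
  · simpa using hS hs
  · have := smul_mem_spCentres (one (a⁻¹ • s) (S.smul_mem _ hs)) a
    rwa [smul_add, smul_inv_smul₀ ha, add_comm] at this

/-- Stabilisers of totally singular subspaces are maximal in the symplectic group. -/
lemma spGL_singular_maximal [Fintype F] (hm : 0 < m) {W : Submodule F V} (hW0 : W ≠ ⊥)
    (hW : IsTotallySingularFor (Cfsg.sympForm m F) W) :
    IsMaximalIn (Cfsg.spGL m F) (subspaceStabilizer W ⊓ Cfsg.spGL m F) := by
  have hWW : ∀ u ∈ W, ∀ v ∈ W, β u v = 0 := fun u hu v hv => by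
    rw [sympBil_apply]; exact hW u hu v hv
  have hW1 : W ≠ ⊤ := by
    rintro rfl
    obtain ⟨v, hv⟩ := exists_ne_zero_vec (F := F) hm
    exact hv (sympBil_nondegenerate.1 v fun x => hWW v trivial x trivial)
  refine ⟨lt_of_le_not_ge inf_le_right fun hle =>
    spGL_not_le_stabilizer hW0 hW1 (hle.trans inf_le_left), fun M hM hMK => ?_⟩
  by_cases hMW : M ≤ subspaceStabilizer W
  · exact Or.inl (le_antisymm (le_inf hMW hMK) hM)
  refine Or.inr (le_antisymm hMK ?_)
  set Wo : Submodule F V := LinearMap.BilinForm.orthogonal β W with hWo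
  have hWWo : W ≤ Wo := fun w hw u hu => hWW u hu w hw
  have hWoX : (Wo : Set V) ⊆ spCentres M := fun v hv c =>
    hM ⟨mem_subspaceStabilizer_of_le fun w hw => by
      rw [spTau_apply, hv w hw, mul_zero, zero_smul, add_zero]; exact hw, spTau_mem _ _⟩
  haveI : Finite (Submodule F V) :=
    Finite.of_injective (fun S : Submodule F V => (S : Set V)) SetLike.coe_injective
  obtain ⟨S, ⟨hWS, hSX⟩, hmax⟩ := (Set.toFinite
    {S : Submodule F V | Wo ≤ S ∧ (S : Set V) ⊆ spCentres M}).exists_maximal ⟨Wo, le_rfl, hWoX⟩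
  have hSo : LinearMap.BilinForm.orthogonal β S ≤ W := by
    intro v hv
    rw [← LinearMap.BilinForm.orthogonal_orthogonal sympBil_nondegenerate spB_isRefl W]
    intro u hu
    exact hv u (hWS hu)
  have hXS : spCentres M ⊆ (S : Set V) := by
    intro x hx
    by_contra hxS
    have := hmax (y := S ⊔ (F ∙ x)) ⟨hWS.trans le_sup_left,
      sup_span_subset_spCentres hSX (hSo.trans (hWWo.trans hWS)) hx hxS⟩ le_sup_left
    exact hxS (this (Submodule.mem_sup_right (Submodule.mem_span_singleton_self x)))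
  by_cases hS : S = ⊤
  · exact spGL_le_of_spTau_mem fun v c => hSX (hS ▸ Submodule.mem_top) c
  exfalso
  -- `M` stabilises the orthogonal of `S`, a non-zero subspace of `W`
  set U : Submodule F V := LinearMap.BilinForm.orthogonal β S with hU
  have hU0 : U ≠ ⊥ := fun h => hS (by
    rw [← LinearMap.BilinForm.orthogonal_orthogonal sympBil_nondegenerate spB_isRefl S, ← hU, h]
    exact LinearMap.BilinForm.orthogonal_bot)
  have hUinv : ∀ g ∈ M, ∀ u ∈ U,
      (g : Matrix (Fin m ⊕ Fin m) (Fin m ⊕ Fin m) F) *ᵥ u ∈ U := by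
    intro g hg u hu s hs
    have h1 := hXS (mulVec_mem_spCentres (hSX hs) (inv_mem hg) (inv_mem (hMK hg)))
    have h2 := hu _ h1
    change β s ((g : Matrix (Fin m ⊕ Fin m) (Fin m ⊕ Fin m) F) *ᵥ u) = 0
    change β (((g⁻¹ : GL (Fin m ⊕ Fin m) F) : Matrix _ _ F) *ᵥ s) u = 0 at h2
    rw [← mem_spGL_iff.1 (hMK hg), mulVec_inv_cancel] at h2
    exact h2
  have hUW : U = W := by
    refine le_antisymm hSo fun w hw => ?_
    obtain ⟨u, hu, hu0⟩ := U.exists_mem_ne_zero_of_ne_bot hU0
    by_contra hwU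
    obtain ⟨φ, hφ1, hφ⟩ := exists_functional (p := (F ∙ w)) (x := u) (fun h => by
      obtain ⟨a, ha⟩ := Submodule.mem_span_singleton.1 h
      have ha0 : a ≠ 0 := fun h0 => hu0 (by simp [← ha, h0])
      exact hwU (by simpa [← ha, ha0] using U.smul_mem a⁻¹ hu))
    obtain ⟨z, hz⟩ : ∃ z, ∀ x, β z x = φ x :=
      ⟨(LinearMap.BilinForm.toDual β sympBil_nondegenerate).symm φ, fun x =>
        LinearMap.BilinForm.apply_toDual_symm_apply _ x⟩
    have hzw : β z w = 0 := (hz w).trans (hφ w (Submodule.mem_span_singleton_self w))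
    have huz : β u z = -1 := by rw [spB_swap z u, hz, hφ1]
    have huw : β u w = 0 := hWW u (hSo hu) w hw
    have hTW : ∀ x ∈ W, ((spTau (z + w) 1 * spTau z (-1) * spTau w (-1) : GL (Fin m ⊕ Fin m) F) :
        Matrix (Fin m ⊕ Fin m) (Fin m ⊕ Fin m) F) *ᵥ x = x + β x z • w := by
      intro x hx
      simp only [Units.val_mul, ← Matrix.mulVec_mulVec, spTau_apply, map_add, map_smul,
        LinearMap.add_apply, LinearMap.smul_apply, smul_eq_mul, hWW x hx w hw, hzw,
        sympBil_isAlt.self_eq_zero]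
      module
    have hT : spTau (z + w) 1 * spTau z (-1) * spTau w (-1) ∈ M :=
      hM ⟨mem_subspaceStabilizer_of_le fun x hx => by
        rw [hTW x hx]; exact W.add_mem hx (W.smul_mem _ hw),
        mul_mem (mul_mem (spTau_mem _ _) (spTau_mem _ _)) (spTau_mem _ _)⟩
    have := hUinv _ hT u hu
    rw [hTW u (hSo hu), huz] at this
    exact hwU (by simpa using U.sub_mem hu this)
  exact hMW fun g hg => mem_subspaceStabilizer_of_le fun w hw => by
    rw [← hUW] at hw ⊢
    exact hUinv g hg w hw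

/-- Stabilisers of small non-degenerate subspaces are maximal in the symplectic group. -/
lemma spGL_nondegenerate_maximal {W : Submodule F V} (hW0 : W ≠ ⊥)
    (hW : IsNondegenerateOn (Cfsg.sympForm m F) W) (hdim : Module.finrank F W < m) :
    IsMaximalIn (Cfsg.spGL m F) (subspaceStabilizer W ⊓ Cfsg.spGL m F) := by
  have hV : Module.finrank F V = m + m := by simp
  have hW1 : W ≠ ⊤ := by
    rintro rfl
    rw [finrank_top, hV] at hdim
    omega
  refine ⟨lt_of_le_not_ge inf_le_right fun hle =>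
    spGL_not_le_stabilizer hW0 hW1 (hle.trans inf_le_left), fun M hM hMK => ?_⟩
  by_cases hMW : M ≤ subspaceStabilizer W
  · exact Or.inl (le_antisymm (le_inf hMW hMK) hM)
  refine Or.inr (le_antisymm hMK ?_)
  set Wo : Submodule F V := LinearMap.BilinForm.orthogonal β W with hWo
  have hndW : (LinearMap.BilinForm.restrict β W).Nondegenerate := by
    constructor <;>
    · rintro ⟨w, hw⟩ h
      by_contra hne
      have hw0 : w ≠ 0 := fun h0 => hne (Subtype.ext h0)
      obtain ⟨⟨x, hx, h1⟩, ⟨y, hy, h2⟩⟩ := hW w hw hw0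
      first
        | exact h2 (by rw [← sympBil_apply]; exact h ⟨y, hy⟩)
        | exact h1 (by rw [← sympBil_apply]; exact h ⟨x, hx⟩)
  have hcompl := LinearMap.BilinForm.isCompl_orthogonal_of_restrict_nondegenerate spB_isRefl hndW
  rw [← hWo] at hcompl
  have hWX : (W : Set V) ⊆ spCentres M := fun v hv c =>
    hM ⟨mem_subspaceStabilizer_of_le fun w hw => by
      rw [spTau_apply]; exact W.add_mem hw (W.smul_mem _ hv), spTau_mem _ _⟩
  have hWoX : (Wo : Set V) ⊆ spCentres M := fun v hv c =>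
    hM ⟨mem_subspaceStabilizer_of_le fun w hw => by
      rw [spTau_apply, hv w hw, mul_zero, zero_smul, add_zero]; exact hw, spTau_mem _ _⟩
  -- some centre lies outside both summands
  obtain ⟨g, hgM, hgW⟩ := SetLike.not_le_iff_exists.1 hMW
  set G : V →ₗ[F] V :=
    Matrix.toLin' (g : Matrix (Fin m ⊕ Fin m) (Fin m ⊕ Fin m) F) with hG
  have hGv : ∀ v, G v = (g : Matrix (Fin m ⊕ Fin m) (Fin m ⊕ Fin m) F) *ᵥ v := fun v =>
    Matrix.toLin'_apply _ v
  have hGinj : Function.Injective G := fun u v h => mulVec_injective (ι := Fin m ⊕ Fin m) g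
    (by simpa [hGv] using h)
  have hGsurj : Function.Surjective G := LinearMap.surjective_of_injective hGinj
  have hout : ∃ x ∈ spCentres M, x ∉ W ∧ x ∉ Wo := by
    by_contra hcon
    push Not at hcon
    -- a subspace inside the union of two lies inside one of them
    have hsub : ∀ (S : Submodule F V), (S : Set V) ⊆ spCentres M → S.map G ≤ W ∨
        S.map G ≤ Wo := by
      intro S hS
      by_contra h
      push Not at h
      obtain ⟨a, ⟨a', ha', rfl⟩, haW⟩ := SetLike.not_le_iff_exists.1 h.1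
      obtain ⟨b, ⟨b', hb', rfl⟩, hbW⟩ := SetLike.not_le_iff_exists.1 h.2
      have mem : ∀ z ∈ S, G z ∈ W ∨ G z ∈ Wo := fun z hz => by
        have hz' := mulVec_mem_spCentres (hS hz) hgM (hMK hgM)
        rw [← hGv] at hz'
        rcases em (G z ∈ W) with h' | h'
        · exact Or.inl h'
        · exact Or.inr (hcon _ hz' h')
      have haWo := (mem a' ha').resolve_left haW
      have hbWo := (mem b' hb').resolve_right hbW
      rcases mem (a' + b') (S.add_mem ha' hb') with h' | h' <;> rw [map_add] at h'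
      · exact haW (by simpa using W.sub_mem h' hbWo)
      · exact hbW (by simpa using Wo.sub_mem h' haWo)
    rcases hsub W hWX with h1 | h1
    · exact hgW (mem_subspaceStabilizer_of_le fun w hw => by
        rw [← hGv]; exact h1 ⟨w, hw, rfl⟩)
    rcases hsub Wo hWoX with h2 | h2
    · have := Submodule.finrank_mono h2
      rw [← (Submodule.equivMapOfInjective G hGinj Wo).finrank_eq] at this
      have h3 := Submodule.finrank_add_eq_of_isCompl hcompl
      omega
    · apply hW0
      have : Submodule.map G (W ⊔ Wo) ≤ Wo := by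
        rw [Submodule.map_sup]; exact sup_le h1 h2
      rw [hcompl.sup_eq_top, Submodule.map_top,
        LinearMap.range_eq_top.2 hGsurj, top_le_iff] at this
      have h' := hcompl.inf_eq_bot
      rwa [this, inf_top_eq] at h'
  obtain ⟨x, hxX, hxW, hxWo⟩ := hout
  obtain ⟨a, ha, b, hb, rfl⟩ :=
    Submodule.mem_sup.1 (hcompl.sup_eq_top ▸ Submodule.mem_top (x := x))
  have ha0 : a ≠ 0 := fun h => hxWo (by simpa [h] using hb)
  have hb0 : b ≠ 0 := fun h => hxW (by simpa [h] using ha)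
  have hcross : ∀ u ∈ W, ∀ v ∈ Wo, β u v = 0 ∧ β v u = 0 := fun u hu v hv =>
    ⟨hv u hu, spB_isRefl _ _ (hv u hu)⟩
  -- moving the component in a non-degenerate summand
  have step : ∀ (A : Submodule F V), (A : Set V) ⊆ spCentres M →
      (∀ u ∈ A, u ≠ 0 → ∃ v ∈ A, β v u ≠ 0) → ∀ a₀ ∈ A, a₀ ≠ 0 → ∀ b₀ : V,
      (∀ v ∈ A, β b₀ v = 0) → a₀ + b₀ ∈ spCentres M →
      ∀ a₁ ∈ A, a₁ ≠ 0 → a₁ + b₀ ∈ spCentres M := by
    intro A hAX hnd a₀ ha₀ h0 b₀ hb₀ hmem a₁ ha₁ h1
    obtain ⟨v, hv, h2, h3⟩ := exists_ne_zero_of_two (φ := (β).flip a₀) (ψ := (β).flip a₁)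
      (hnd _ ha₀ h0) (hnd _ ha₁ h1)
    change β v a₀ ≠ 0 at h2
    change β v a₁ ≠ 0 at h3
    have one : ∀ {p q : V}, p + b₀ ∈ spCentres M → q ∈ A → β q p ≠ 0 → p ∈ A →
        q + b₀ ∈ spCentres M := by
      intro p q hp hq hpq hpA
      have hne : β (p + b₀) (q - p) ≠ 0 := by
        simp only [map_add, map_sub, LinearMap.add_apply, hb₀ q hq, hb₀ p hpA,
          sympBil_isAlt.self_eq_zero, spB_swap q p]
        simpa using hpq
      have := plane_mem_spCentres hp (hAX (A.sub_mem hq hpA)) hne 1 1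
      simpa [add_comm, add_left_comm, add_assoc] using this
    exact one (one hmem hv h2 ha₀) ha₁ (by rw [spB_swap v a₁]; simpa using h3) hv
  have hndWo : ∀ u ∈ Wo, u ≠ 0 → ∃ v ∈ Wo, β v u ≠ 0 := by
    intro u hu hu0
    by_contra hcon
    push Not at hcon
    apply hu0
    refine sympBil_nondegenerate.2 u fun y => ?_
    obtain ⟨p, hp, q, hq, rfl⟩ :=
      Submodule.mem_sup.1 (hcompl.sup_eq_top ▸ Submodule.mem_top (x := y))
    simp [(hcross p hp u hu).1, hcon q hq]
  refine spGL_le_of_spTau_mem fun v c => ?_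
  obtain ⟨p, hp, q, hq, rfl⟩ :=
    Submodule.mem_sup.1 (hcompl.sup_eq_top ▸ Submodule.mem_top (x := v))
  rcases eq_or_ne p 0 with rfl | hp0
  · simpa using hWoX hq c
  rcases eq_or_ne q 0 with rfl | hq0
  · simpa using hWX hp c
  have h1 := step W hWX (fun u hu hu0 => by
    obtain ⟨⟨y, hy, h⟩, -⟩ := hW u hu hu0
    exact ⟨y, hy, by rwa [sympBil_apply]⟩) a ha ha0 b (fun w hw => (hcross w hw b hb).2) hxX p hp hp0
  rw [add_comm] at h1
  have h2 := step Wo hWoX hndWo b hb hb0 p (fun w hw => (hcross p hp w hw).1) h1 q hq hq0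
  rw [add_comm] at h2
  exact h2 c

end Cfsg.Agent.GeoClasses
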